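import Cfsg.Agent.H759.Reg.Det
import Cfsg.Agent.H524.RegTool
import Cfsg.Agent.Lib.Zsigmondy

/-!
# S4129 in the own characteristic: `E7` (helper759, for helper524)

* `card_cent` : `|C(x)|` divides `Φ_m(q) (q² - 1)` for `x` of prime order with `q` of order `m ∈ {7, 9, 14, 18}`;
* `regB_e7`.
-/

set_option autoImplicit false
set_option linter.unusedSectionVars false

namespace Cfsg.Agent.H759.Reg.E7

open CoxeterSystem Subgroup Cfsg Cfsg.Lie Cfsg.Lie.ChevalleyDatum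
open Cfsg.Agent.ChevalleyStructure Cfsg.Agent.ChevalleyStructure.Elts Cfsg.Agent.ChevalleyStructure.CoxeterGeom
  Cfsg.Agent.ChevalleyStructure.CoxeterGeomTypes Cfsg.Agent.ChevalleyStructure.NPerm
open Cfsg.Agent.Tits.Roots Cfsg.Agent.Tits.Core Cfsg.Agent.Nodes.Reps Cfsg.Agent.Nodes.BNOf
  Cfsg.Agent.Nodes.RGDChev Cfsg.Agent.Nodes.Bruhat
open Cfsg.Agent.KFacts.RgdField Cfsg.Agent.KFacts.RgdChevCoord Cfsg.Agent.BpExc.TorCent Cfsg.Agent.BpExc.TorChev
open Cfsg.Agent.BpExc.Tow Cfsg.Agent.BpExc.TowChev Cfsg.Agent.BpExc.FamExt Cfsg.Agent.BpExc.FamUntw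
  Cfsg.Agent.BpExc.FamInst Cfsg.Agent.BpExc.LangFr Cfsg.Agent.BpExc.FamField Cfsg.Agent.BpExc.RowsUntw
open Cfsg.Agent.H378.TorDual Cfsg.Agent.H378.TorChar Cfsg.Agent.H378.TorFin Cfsg.Agent.H378.LatRoot
  Cfsg.Agent.H378.Regular Cfsg.Agent.H378.ExcAdj Cfsg.Agent.H378.ExcNear Cfsg.Agent.H378.RegFin
  Cfsg.Agent.H378.LatCyc Cfsg.Agent.H378.LatCodim Cfsg.Agent.H378.LatPerp Cfsg.Agent.H378.RegE7
open Cfsg.Agent.H759.Reg Cfsg.Agent.H524.DirRed

universe u v

/-- **The order of the centralizer.** -/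
theorem card_cent {F : Type u} [Field F] [Finite F] {x : ↥(chevE7.group F)} {ℓ m : ℕ} (hℓ : ℓ.Prime)
    (hx : orderOf x = ℓ) (h : od (Nat.card F) ℓ = m) (hm : m = 7 ∨ m = 9 ∨ m = 14 ∨ m = 18) :
    Nat.card ↥(Subgroup.centralizer {x}) ∣
      ((Polynomial.cyclotomic m ℤ).eval ((Nat.card F : ℕ) : ℤ) * (((Nat.card F : ℕ) : ℤ) ^ 2 - 1)).natAbs := by
  let cs : CoxeterSystem CoxeterMatrix.E₇ CoxeterMatrix.E₇.Group := CoxeterMatrix.E₇.toCoxeterSystem
  have := finite_W e7T cs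
  have hm0 : 0 < m := by omega
  obtain ⟨w, ⟨k, _, χ, hχ⟩, φ, hφ⟩ := cent_E7 hℓ hx h hm cs
  have hℓW : ¬ ℓ ∣ Nat.card CoxeterMatrix.E₇.Group := by
    intro h1
    have h3 := le_of_dvd_card cs e7T.isCartan hℓ h1
    have h4 := mod_of_od hℓ h (by omega)
    have h5 := hℓ.two_le
    have h6 := Nat.le_of_dvd (by omega) h4
    have h8 : ℓ = 8 := by omega
    rw [h8] at hℓ
    exact absurd hℓ (by norm_num)
  obtain ⟨y, hy, hy'⟩ := ker_of_eig e7T cs hℓ hℓW h hm0 hχ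
  have hN : (rep cs e7T.isCartan w) ^ Nat.card CoxeterMatrix.E₇.Group = 1 := by
    rw [← map_pow, pow_card_eq_one', map_one]
  have hl : m.totient + 1 = 7 := by rcases hm with rfl | rfl | rfl | rfl <;> decide
  have h1 := det_codim hm0 hl hy hy' Nat.card_pos hN ((Nat.card F : ℕ) : ℤ)
  obtain ⟨k', _, _, f, r, _, _, n, hk, hka, hn0, hn⟩ := exists_closure F
  have hdet := det_rep_ne_zero (k := k') cs r hn0 e7T.isCartan w
  rw [← hn] at hdet
  obtain ⟨e3⟩ := kerOf_equiv k' hdet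
  refine dvd_trans ?_ h1
  rw [← card_kerOf k' hdet, Nat.card_congr e3.toEquiv]
  exact Subgroup.card_dvd_of_injective φ hφ

/-- the order -/
theorem card_mul (F : Type u) [Field F] [Finite F] :
    Nat.gcd 2 (Nat.card F - 1) * Nat.card ↥(chevE7.group F) =
      Nat.card F ^ 63 * (Nat.card F ^ 2 - 1) * (Nat.card F ^ 6 - 1) * (Nat.card F ^ 8 - 1) * (Nat.card F ^ 10 - 1) *
        (Nat.card F ^ 12 - 1) * (Nat.card F ^ 14 - 1) * (Nat.card F ^ 18 - 1) := by
  have : Fintype F := Fintype.ofFinite F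
  have h := Cfsg.Agent.S1064.result (F := F) rfl
  rwa [← Nat.card_eq_fintype_card] at h

/-- elements of prime order `ℓ` with `q` of order `m` modulo `ℓ` exist -/
theorem exists_elt (F : Type u) [Field F] [Finite F] {m : ℕ} (hm : m = 7 ∨ m = 9) :
    ∃ x : ↥(chevE7.group F), ∃ ℓ : ℕ, ℓ.Prime ∧ orderOf x = ℓ ∧ od (Nat.card F) ℓ = m := by
  have hq : 2 ≤ Nat.card F := Finite.one_lt_card
  obtain ⟨r, hr, hord⟩ := Cfsg.Agent.Lib.Zsigmondy.exists_prime_orderOf (a := Nat.card F) (n := m) hq (by omega)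
    (by omega) (by omega)
  have hrm : r ∣ Nat.card F ^ m - 1 := (Cfsg.Agent.Lib.Zsigmondy.dvd_pow_sub_one_iff (by omega) m).2 (dvd_of_eq hord)
  have h8 : 8 ≤ r := by
    have h4 := mod_of_od hr hord (by omega)
    have h5 := hr.two_le
    have h6 := Nat.le_of_dvd (by omega) h4
    omega
  have hd : r ∣ Nat.gcd 2 (Nat.card F - 1) * Nat.card ↥(chevE7.group F) := by
    rw [card_mul F]
    have h2 : Nat.card F ^ m - 1 ∣ Nat.card F ^ (m * 2) - 1 := by
      rw [pow_mul]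
      have := Nat.sub_dvd_pow_sub_pow (Nat.card F ^ m) 1 2
      rwa [one_pow] at this
    rcases hm with rfl | rfl
    · exact ((hrm.trans h2).mul_left _).mul_right _
    · exact (hrm.trans h2).mul_left _
  have hd' : r ∣ Nat.card ↥(chevE7.group F) := by
    rcases hr.dvd_mul.1 hd with h3 | h3
    · have h4 := Nat.le_of_dvd (by norm_num) (h3.trans (Nat.gcd_dvd_left _ _))
      omega
    · exact h3
  have : Fact r.Prime := ⟨hr⟩
  have hfin : Finite ↥(chevE7.group F) := inferInstance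
  obtain ⟨x, hx⟩ := exists_prime_orderOf_dvd_card' r hd'
  exact ⟨x, r, hr, hx, hord⟩

theorem not_sq_dvd (z : ZMod 49) : z ^ 6 + z ^ 5 + z ^ 4 + z ^ 3 + z ^ 2 + z + 1 ≠ 0 := by
  revert z; decide +kernel

theorem eval_seven (q : ℕ) : ((Polynomial.cyclotomic 7 ℤ).eval (q : ℤ)) = ((q ^ 6 + q ^ 5 + q ^ 4 + q ^ 3 + q ^ 2 + q + 1 : ℕ) : ℤ) := by
  have : Fact (Nat.Prime 7) := ⟨by norm_num⟩
  rw [Polynomial.cyclotomic_prime ℤ 7]
  simp [Finset.sum_range_succ]
  ring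

/-- `s` divides `q² - 1`: `s²` does not divide `Φ_7(q)` -/
theorem seven_bound {q s : ℕ} (hq : 2 ≤ q) (hs : s.Prime) (h : s ∣ q ^ 2 - 1) :
    ¬ s ^ 2 ∣ q ^ 6 + q ^ 5 + q ^ 4 + q ^ 3 + q ^ 2 + q + 1 := by
  intro h1
  have h2 : s ∣ q ^ 6 + q ^ 5 + q ^ 4 + q ^ 3 + q ^ 2 + q + 1 := (dvd_pow_self s two_ne_zero).trans h1
  have : Fact s.Prime := ⟨hs⟩
  have hz2 : ((q : ℕ) : ZMod s) ^ 2 = 1 := by
    have h3 := (ZMod.natCast_eq_zero_iff (q ^ 2 - 1) s).2 h
    rw [Nat.cast_sub (Nat.one_le_pow _ _ (by omega))] at h3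
    push_cast at h3
    exact sub_eq_zero.1 h3
  have hz7 : ((q : ℕ) : ZMod s) ^ 6 + ((q : ℕ) : ZMod s) ^ 5 + ((q : ℕ) : ZMod s) ^ 4 + ((q : ℕ) : ZMod s) ^ 3 +
      ((q : ℕ) : ZMod s) ^ 2 + ((q : ℕ) : ZMod s) + 1 = 0 := by
    have h3 := (ZMod.natCast_eq_zero_iff _ s).2 h2
    push_cast at h3
    exact h3
  have h7 : ((7 : ℕ) : ZMod s) = 0 := by
    generalize ((q : ℕ) : ZMod s) = z at *
    have e3 : z ^ 3 = z := by rw [pow_succ, hz2, one_mul]
    have e4 : z ^ 4 = 1 := by rw [show (4 : ℕ) = 2 * 2 by norm_num, pow_mul, hz2, one_pow]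
    have e5 : z ^ 5 = z := by rw [pow_succ, e4, one_mul]
    have e6 : z ^ 6 = 1 := by rw [show (6 : ℕ) = 2 * 3 by norm_num, pow_mul, hz2, one_pow]
    rw [e6, e5, e4, e3, hz2] at hz7
    -- 4 + 3 z = 0, hence 16 = 9
    have h9 : (4 : ZMod s) * 4 = 9 := by
      have h10 : (4 : ZMod s) = -(3 * z) := by linear_combination hz7
      calc (4 : ZMod s) * 4 = (-(3 * z)) * (-(3 * z)) := by rw [← h10]
        _ = 9 * z ^ 2 := by ring
        _ = 9 := by rw [hz2, mul_one]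
    push_cast
    linear_combination h9
  have hs7 : s = 7 := (Nat.prime_dvd_prime_iff_eq hs (by norm_num)).1 ((ZMod.natCast_eq_zero_iff 7 s).1 h7)
  subst hs7
  have h3 := (ZMod.natCast_eq_zero_iff _ 49).2 (show 49 ∣ _ from h1)
  push_cast at h3
  exact not_sq_dvd _ h3

/-- **`E7(q)` in its own characteristic.** -/
theorem regB_group {F : Type u} [Field F] [Finite F] {p q : ℕ} (hp : p ∣ Nat.card F) (hpp : p.Prime) (hq : q.Prime)
    (hd : q ∣ Nat.card ↥(chevE7.group F)) : RegB ↥(chevE7.group F) p q := by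
  have hfin : Finite ↥(chevE7.group F) := inferInstance
  have hF : 2 ≤ Nat.card F := Finite.one_lt_card
  obtain ⟨x, ℓ, hℓ, hx, hod⟩ := exists_elt F (m := 7) (Or.inl rfl)
  obtain ⟨y, ℓ', hℓ', hy, hod'⟩ := exists_elt F (m := 9) (Or.inr rfl)
  have hxp : ¬ p ∣ orderOf x := by
    rw [hx]
    intro h
    rw [(Nat.prime_dvd_prime_iff_eq hpp hℓ).1 h] at hp
    exact not_dvd_q hℓ hod (by norm_num) hp
  have hyp : ¬ p ∣ orderOf y := by
    rw [hy]
    intro h
    rw [(Nat.prime_dvd_prime_iff_eq hpp hℓ').1 h] at hp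
    exact not_dvd_q hℓ' hod' (by norm_num) hp
  have hcx := card_cent hℓ hx hod (by norm_num)
  have hcy := card_cent hℓ' hy hod' (by norm_num)
  have hmul := card_mul F
  have h7 := @od_of_dvd (Nat.card F) q 7
  have h9 := @od_of_dvd (Nat.card F) q 9
  have e1 : ((((Nat.card F : ℕ) : ℤ) ^ 2 - 1)).natAbs = Nat.card F ^ 2 - 1 := by
    have h1 : (((Nat.card F : ℕ) : ℤ) ^ 2 - 1) = ((Nat.card F ^ 2 - 1 : ℕ) : ℤ) := by
      rw [Nat.cast_sub (Nat.one_le_pow _ _ (by omega))]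
      push_cast
      rfl
    rw [h1, Int.natAbs_natCast]
  rw [Int.natAbs_mul, e1] at hcx hcy
  rw [eval_seven, Int.natAbs_natCast] at hcx h7
  generalize ((Polynomial.cyclotomic 9 ℤ).eval ((Nat.card F : ℕ) : ℤ)).natAbs = f9 at *
  have hb := @seven_bound (Nat.card F) q hF hq
  have f0 : Nat.card F ^ 6 + Nat.card F ^ 5 + Nat.card F ^ 4 + Nat.card F ^ 3 + Nat.card F ^ 2 + Nat.card F + 1 ≠ 0 := by
    omega
  generalize Nat.card F ^ 6 + Nat.card F ^ 5 + Nat.card F ^ 4 + Nat.card F ^ 3 + Nat.card F ^ 2 + Nat.card F + 1 = f7 at *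
  have hA0 : Nat.card F ^ 2 - 1 ≠ 0 := by
    have : 2 ^ 2 ≤ Nat.card F ^ 2 := Nat.pow_le_pow_left hF 2
    omega
  by_cases hA : q ∣ Nat.card F ^ 2 - 1
  · -- `q` divides `q0² - 1`
    set a := (Nat.card F ^ 2 - 1).factorization q with ha
    have ha1 : 1 ≤ a := (hq.dvd_iff_one_le_factorization hA0).1 hA
    refine RegB.of_dvd (x := x) (a := a + 2) hq hxp hcx ?_ ?_
    · have hE0 : Nat.card ↥(chevE7.group F) ≠ 0 := Nat.card_pos.ne'
      have hg0 : Nat.gcd 2 (Nat.card F - 1) ≠ 0 := Nat.gcd_ne_zero_left two_ne_zero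
      rw [hq.pow_dvd_iff_le_factorization hE0]
      have h1 : (Nat.card F ^ 2 - 1) ^ 7 ∣ Nat.gcd 2 (Nat.card F - 1) * Nat.card ↥(chevE7.group F) := by
        rw [hmul]
        have hk : ∀ k : ℕ, Nat.card F ^ 2 - 1 ∣ Nat.card F ^ (2 * k) - 1 := by
          intro k
          rw [pow_mul]
          have := Nat.sub_dvd_pow_sub_pow (Nat.card F ^ 2) 1 k
          rwa [one_pow] at this
        have h2 : (Nat.card F ^ 2 - 1) ^ 7 = 1 * (Nat.card F ^ 2 - 1) * (Nat.card F ^ 2 - 1) * (Nat.card F ^ 2 - 1) *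
            (Nat.card F ^ 2 - 1) * (Nat.card F ^ 2 - 1) * (Nat.card F ^ 2 - 1) * (Nat.card F ^ 2 - 1) := by ring
        rw [h2]
        exact Nat.mul_dvd_mul (Nat.mul_dvd_mul (Nat.mul_dvd_mul (Nat.mul_dvd_mul (Nat.mul_dvd_mul (Nat.mul_dvd_mul
          (Nat.mul_dvd_mul (one_dvd _) dvd_rfl) (hk 3)) (hk 4)) (hk 5)) (hk 6)) (hk 7)) (hk 9)
      have h3 := (Nat.factorization_le_iff_dvd (pow_ne_zero 7 hA0) (mul_ne_zero hg0 hE0)).2 h1 q
      rw [Nat.factorization_pow, Nat.factorization_mul hg0 hE0] at h3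
      simp only [Finsupp.smul_apply, Finsupp.add_apply, smul_eq_mul] at h3
      have h4 : (Nat.gcd 2 (Nat.card F - 1)).factorization q ≤ 1 := by
        have h5 := (Nat.factorization_le_iff_dvd hg0 two_ne_zero).2 (Nat.gcd_dvd_left 2 (Nat.card F - 1)) q
        refine h5.trans ?_
        rw [Nat.prime_two.factorization]
        by_cases h6 : (2 : ℕ) = q
        · subst h6; simp
        · rw [Finsupp.single_eq_of_ne (Ne.symm h6)]; omega
      omega
    · rw [hq.pow_dvd_iff_le_factorization (mul_ne_zero f0 hA0), Nat.factorization_mul f0 hA0, Finsupp.add_apply]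
      have h1 := hb hA
      rw [hq.pow_dvd_iff_le_factorization f0] at h1
      omega
  · by_cases h : q ∣ f7
    · refine RegB.of_dvd (x := y) (a := 1) hq hyp hcy (by rwa [pow_one]) ?_
      rw [pow_one, hq.dvd_mul]
      rintro (h' | h')
      · have h1 := Nat.dvd_gcd (h7 h) (h9 h')
        have h2 : orderOf ((Nat.card F : ℕ) : ZMod q) = 1 := Nat.dvd_one.1 (by simpa using h1)
        rw [orderOf_eq_one_iff] at h2
        apply hA
        have h3 : q ∣ Nat.card F - 1 := by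
          rw [← ZMod.natCast_eq_zero_iff, Nat.cast_sub (by omega), h2]
          simp
        have h4 := Nat.sub_dvd_pow_sub_pow (Nat.card F) 1 2
        rw [one_pow] at h4
        exact h3.trans h4
      · exact hA h'
    · refine RegB.of_dvd (x := x) (a := 1) hq hxp hcx (by rwa [pow_one]) ?_
      rw [pow_one, hq.dvd_mul]
      rintro (h' | h')
      · exact h h'
      · exact hA h'

/-- **The row of `E7`.** -/
theorem regB_e7 {S : Type v} [Group S] [Finite S] {F : Type u} [Field F] [Fintype F] {l : ℕ} [CharP F l]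
    (h : Nonempty (S ≃* chevE7.group F)) {q : ℕ} (hq : q.Prime) (hd : q ∣ Nat.card S) : RegB S l q := by
  obtain ⟨e⟩ := h
  have hl : l.Prime := (CharP.char_is_prime_or_zero F l).resolve_right (CharP.char_ne_zero_of_finite F l)
  have hlF : l ∣ Nat.card F := by
    have h1 := Nat.cast_card_eq_zero F
    rw [Nat.card_eq_fintype_card]
    exact (CharP.cast_eq_zero_iff F l _).1 h1
  exact RegB.congr e.symm (regB_group hlF hl hq (by rwa [← Nat.card_congr e.toEquiv]))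

end Cfsg.Agent.H759.Reg.E7
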